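import Mathlib

set_option autoImplicit false

namespace CfsgLib.AbelianPermBound

/-- AM-GM in natural numbers. -/
theorem prod_mul_pow_le (L : List ℕ) : L.prod * L.length ^ L.length ≤ L.sum ^ L.length := by
  rcases Nat.eq_zero_or_pos L.length with h | h
  · rw [List.length_eq_zero_iff.1 h]; simp
  set k := L.length with hk
  have hprod : ((L.prod : ℕ) : ℝ) = ∏ i : Fin k, (L[(i : ℕ)] : ℝ) := by
    rw [← Nat.cast_prod, Fin.prod_univ_getElem]
  have hsum : ((L.sum : ℕ) : ℝ) = ∑ i : Fin k, (L[(i : ℕ)] : ℝ) := by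
    rw [← Nat.cast_sum, Fin.sum_univ_getElem]
  have hk' : (0 : ℝ) < k := by exact_mod_cast h
  have hA := Real.geom_mean_le_arith_mean_weighted (Finset.univ : Finset (Fin k)) (fun _ => (1 : ℝ) / k)
    (fun i => (L[(i : ℕ)] : ℝ)) (fun i _ => by positivity)
    (by rw [Finset.sum_const, Finset.card_univ, Fintype.card_fin, nsmul_eq_mul]; field_simp)
    (fun i _ => by positivity)
  rw [← Finset.mul_sum, ← hsum, Real.finsetProd_rpow _ _ (fun i _ => by positivity), ← hprod] at hA
  have h2 := pow_le_pow_left₀ (by positivity) hA k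
  rw [one_div, Real.rpow_inv_natCast_pow (by positivity) (by omega), ← one_div, mul_pow, one_div, inv_pow] at h2
  have h3 : (0 : ℝ) < (k : ℝ) ^ k := by positivity
  have h4 : ((L.prod : ℕ) : ℝ) * (k : ℝ) ^ k ≤ ((L.sum : ℕ) : ℝ) ^ k := by
    calc ((L.prod : ℕ) : ℝ) * (k : ℝ) ^ k ≤ (((k : ℝ) ^ k)⁻¹ * ((L.sum : ℕ) : ℝ) ^ k) * (k : ℝ) ^ k :=
          mul_le_mul_of_nonneg_right h2 h3.le
      _ = _ := by field_simp
  exact_mod_cast h4

/-- Splitting prime powers. -/
theorem exists_split {p : ℕ} (hp : 2 ≤ p) {k : ℕ} : ∀ (d : ℕ) (L : List ℕ), L.length + d = k →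
    (∀ x ∈ L, ∃ e, 1 ≤ e ∧ x = p ^ e) → p ^ k ≤ L.prod →
    ∃ L' : List ℕ, L'.length = k ∧ L'.prod = L.prod ∧ L'.sum ≤ L.sum := by
  intro d
  induction d with
  | zero => intro L h _ _; exact ⟨L, by omega, rfl, le_rfl⟩
  | succ d ih =>
    intro L h hpow hprod
    obtain ⟨x, hx, hxp⟩ : ∃ x ∈ L, x ≠ p := by
      by_contra hcon
      push Not at hcon
      rw [List.eq_replicate_of_mem hcon, List.prod_replicate] at hprod
      have := (Nat.pow_le_pow_iff_right hp).1 hprod
      omega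
    obtain ⟨e, he, rfl⟩ := hpow x hx
    have he2 : 2 ≤ e := by
      by_contra hlt
      rw [show e = 1 by omega, pow_one] at hxp
      exact hxp rfl
    obtain ⟨f, rfl⟩ : ∃ f, e = f + 1 := ⟨e - 1, by omega⟩
    have hperm := List.perm_cons_erase hx
    obtain ⟨L', h1, h2, h3⟩ := ih (p ^ f :: p :: L.erase (p ^ (f + 1))) (by
      have := hperm.length_eq
      simp only [List.length_cons] at this ⊢
      omega) (by
      intro y hy
      simp only [List.mem_cons] at hy
      rcases hy with rfl | rfl | hy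
      · exact ⟨f, by omega, rfl⟩
      · exact ⟨1, le_rfl, (pow_one y).symm⟩
      · exact hpow y (List.mem_of_mem_erase hy)) (by
      rw [List.prod_cons, List.prod_cons, ← mul_assoc, ← pow_succ, ← List.prod_cons, ← hperm.prod_eq]
      exact hprod)
    refine ⟨L', h1, ?_, h3.trans ?_⟩
    · rw [h2, List.prod_cons, List.prod_cons, ← mul_assoc, ← pow_succ, ← List.prod_cons, ← hperm.prod_eq]
    · rw [hperm.sum_eq, List.sum_cons, List.sum_cons, List.sum_cons, pow_succ]
      have h5 : p ≤ p ^ f := by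
        calc p = p ^ 1 := (pow_one p).symm
          _ ≤ p ^ f := Nat.pow_le_pow_right (by omega) (by omega)
      have h6 : p ^ f * 2 ≤ p ^ f * p := Nat.mul_le_mul_left _ hp
      omega

variable {Ω : Type*} [Fintype Ω] [DecidableEq Ω]

/-- Points of an abelian `p`-group of permutations whose stabilisers meet trivially. -/
theorem exists_points {p : ℕ} [Fact p.Prime] (A : Subgroup (Equiv.Perm Ω)) (hA : IsPGroup p A)
    [hab : IsMulCommutative A] (W : Subgroup A) (hW : ∀ x, x ∈ W ↔ x ^ p = 1) :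
    ∀ (m : ℕ) (B : Subgroup A), Nat.card ↥(B ⊓ W) ≤ p ^ m → ∃ T : Finset Ω, T.card ≤ m ∧
      (∀ a ∈ T, ∃ b ∈ B, b • a ≠ a) ∧
      (∀ a ∈ T, ∀ c ∈ T, a ≠ c → Disjoint (MulAction.orbit A a) (MulAction.orbit A c)) ∧
      Nat.card B ≤ ∏ a ∈ T, Nat.card (MulAction.orbit A a) := by
  classical
  intro m
  induction m using Nat.strong_induction_on with
  | _ m ih =>
  intro B hB
  by_cases hB1 : B = ⊥
  · refine ⟨∅, by simp, by simp, by simp, ?_⟩
    simp [hB1]
  have hBp : IsPGroup p B := hA.to_subgroup B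
  haveI : Nontrivial B := (Subgroup.nontrivial_iff_ne_bot B).2 hB1
  have hdvd : p ∣ Nat.card B := by
    obtain ⟨j, hj⟩ := IsPGroup.iff_card.1 hBp
    have h1 : 1 < Nat.card B := Finite.one_lt_card
    rw [hj] at h1 ⊢
    exact dvd_pow_self p fun h0 => by simp [h0] at h1
  obtain ⟨t, ht⟩ := exists_prime_orderOf_dvd_card' p hdvd
  have htW : (t : A) ∈ B ⊓ W := ⟨t.2, (hW _).2 (by
    rw [← SubgroupClass.coe_pow, show t ^ p = 1 from ht ▸ pow_orderOf_eq_one t]; rfl)⟩
  obtain ⟨a, ha⟩ : ∃ a : Ω, (t : A) • a ≠ a := by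
    by_contra hcon
    push Not at hcon
    have h1 : t = 1 := Subtype.ext (Subtype.ext (Equiv.ext hcon))
    rw [h1, orderOf_one] at ht
    exact (Fact.out : p.Prime).ne_one ht.symm
  set B' := B ⊓ MulAction.stabilizer A a with hB'
  have hlt : B' ⊓ W < B ⊓ W := lt_of_le_of_ne (inf_le_inf_right W inf_le_left) fun e =>
    ha (show (t : A) • a = a from (e.ge htW).1.2)
  obtain ⟨i, hi⟩ := IsPGroup.iff_card.1 (hA.to_subgroup (B' ⊓ W))
  have him : i < m := by
    have h1 : Nat.card ↥(B' ⊓ W) < Nat.card ↥(B ⊓ W) := by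
      refine lt_of_le_of_ne (Subgroup.card_le_of_le hlt.le) fun e => hlt.ne (Subgroup.eq_of_le_of_card_ge hlt.le e.ge)
    rw [hi] at h1
    exact (Nat.pow_lt_pow_iff_right (Fact.out : p.Prime).one_lt).1 (h1.trans_le hB)
  obtain ⟨T, hTc, hTm, hTd, hTp⟩ := ih i him B' hi.le
  have hfix : ∀ b ∈ B', ∀ c ∈ MulAction.orbit A a, b • c = c := by
    rintro b hb _ ⟨g, rfl⟩
    have h1 : b * g = g * b := hab.is_comm.comm b g
    show b • (g • a) = g • a
    rw [← mul_smul, h1, mul_smul, show b • a = a from hb.2]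
  have hne : ∀ c ∈ T, Disjoint (MulAction.orbit A a) (MulAction.orbit A c) := by
    intro c hc
    rw [Set.disjoint_left]
    intro y hy hy'
    obtain ⟨b, hb, hbc⟩ := hTm c hc
    apply hbc
    refine hfix b hb c ?_
    rw [← MulAction.orbit_eq_iff.2 hy, MulAction.orbit_eq_iff.2 hy']
    exact MulAction.mem_orbit_self c
  have haT : a ∉ T := fun h => Set.disjoint_left.1 (hne a h) (MulAction.mem_orbit_self a) (MulAction.mem_orbit_self a)
  refine ⟨insert a T, ?_, ?_, ?_, ?_⟩
  · rw [Finset.card_insert_of_notMem haT]; omega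
  · intro c hc
    rcases Finset.mem_insert.1 hc with rfl | hc
    · exact ⟨t, t.2, ha⟩
    · obtain ⟨b, hb, hbc⟩ := hTm c hc
      exact ⟨b, hb.1, hbc⟩
  · intro c hc d hd hcd
    rcases Finset.mem_insert.1 hc with e | hc' <;> rcases Finset.mem_insert.1 hd with e' | hd'
    · exact absurd (e.trans e'.symm) hcd
    · rw [e]; exact hne d hd'
    · rw [e']; exact (hne c hc').symm
    · exact hTd c hc' d hd' hcd
  · rw [Finset.prod_insert haT]
    have h1 : Nat.card B = Nat.card B' * B'.relIndex B := by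
      rw [← Nat.card_congr (Subgroup.subgroupOfEquivOfLe (inf_le_left : B' ≤ B)).toEquiv]
      exact (Subgroup.card_mul_index _).symm
    have h2 : B'.relIndex B ≤ Nat.card (MulAction.orbit A a) := by
      rw [hB', Subgroup.inf_relIndex_left, Nat.card_coe_set_eq, ← MulAction.index_stabilizer]
      rw [← Subgroup.relIndex_top_right (H := MulAction.stabilizer A a)]
      exact Subgroup.relIndex_le_of_le_right le_top (by rw [Subgroup.relIndex_top_right]; exact Subgroup.index_ne_zero_of_finite)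
    rw [h1, mul_comm]
    exact Nat.mul_le_mul h2 hTp

end CfsgLib.AbelianPermBound
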